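import Cfsg.Agent.H771.IFx.Sl3

/-!
# S5719 (helper771): `PSL₃(q)`, `q` even
-/

set_option autoImplicit false
set_option linter.unusedSectionVars false

namespace Cfsg.Agent.H771.IFx

open Matrix Subgroup Cfsg.Agent.H209.Fxy

variable {F : Type*} [Field F]

theorem simple3 : IsSimpleGroup (ProjectiveSpecialLinearGroup (Fin 3) F) :=
  Cfsg.Agent.LieClassical.SLGen.psl_isSimpleGroup (by simp)

theorem pj_tr_one {v f : Fin 3 → F} (h : f ⬝ᵥ v = 0) (hv : v ≠ 0) (hf : f ≠ 0) : pj F (tr v f h) ≠ 1 := by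
  intro h1
  obtain ⟨r, hr⟩ := pj_ker h1
  rw [tr_coe] at hr
  have h2 := congrArg (fun M => M *ᵥ v) hr
  simp only [add_mulVec, one_mulVec, smul_mulVec, vecMulVec_mulVec, h, MulOpposite.op_zero, zero_smul, add_zero] at h2
  obtain ⟨i, hi⟩ := exists_ne hv
  have h3 := congrFun h2 i
  simp only [Pi.smul_apply, smul_eq_mul] at h3
  have h4 : r = 1 := by
    have : (1 - r) * v i = 0 := by linear_combination h3
    rcases mul_eq_zero.1 this with h5 | h5
    · exact (sub_eq_zero.1 h5).symm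
    · exact absurd h5 hi
  rw [h4, one_smul] at hr
  exact vv_ne hv hf (add_eq_left.1 hr)

theorem nonab3 : ∃ a b : ProjectiveSpecialLinearGroup (Fin 3) F, a * b ≠ b * a := by
  by_contra hcon
  push Not at hcon
  have h1 : commutator (SpecialLinearGroup (Fin 3) F) ≤ Subgroup.center (SpecialLinearGroup (Fin 3) F) := by
    rw [commutator_def, Subgroup.commutator_le]
    intro g _ k _
    rw [← QuotientGroup.eq_one_iff, commutatorElement_def, QuotientGroup.mk_mul, QuotientGroup.mk_mul,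
      QuotientGroup.mk_mul, QuotientGroup.mk_inv, QuotientGroup.mk_inv, hcon (QuotientGroup.mk g) (QuotientGroup.mk k)]
    group
  rw [Cfsg.Agent.LieClassical.SLGen.commutator_eq_top (by simp)] at h1
  have h2 : (![0, 1, 0] : Fin 3 → F) ⬝ᵥ ![1, 0, 0] = 0 := by simp
  apply pj_tr_one h2
  · intro h; exact one_ne_zero (congrFun h 0)
  · intro h; exact one_ne_zero (congrFun h 1)
  · exact (QuotientGroup.eq_one_iff _).2 (h1 (mem_top _))

/-- square zero matrices -/
theorem sq_zero {N : Matrix (Fin 3) (Fin 3) F} (h : N * N = 0) (h0 : N ≠ 0) :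
    ∃ v f : Fin 3 → F, v ≠ 0 ∧ f ≠ 0 ∧ f ⬝ᵥ v = 0 ∧ N = vecMulVec v f := by
  have h1 := LinearMap.finrank_range_add_finrank_ker (Matrix.toLin' N)
  have h2 : LinearMap.range (Matrix.toLin' N) ≤ LinearMap.ker (Matrix.toLin' N) := by
    rintro _ ⟨w, rfl⟩
    rw [LinearMap.mem_ker, toLin'_apply, toLin'_apply, mulVec_mulVec, h, zero_mulVec]
  have h3 := Submodule.finrank_mono h2
  rw [Module.finrank_fintype_fun_eq_card, Fintype.card_fin] at h1
  have h4 : Module.finrank F (LinearMap.range (Matrix.toLin' N)) ≤ 1 := by omega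
  obtain ⟨v, hv⟩ := finrank_le_one_iff.1 h4
  choose f hf using fun j : Fin 3 => hv ⟨Matrix.toLin' N (Pi.single j 1), ⟨_, rfl⟩⟩
  have hN : N = vecMulVec v.1 f := by
    ext i j
    have h5 := congrArg Subtype.val (hf j)
    have h6 := congrFun h5 i
    rw [vecMulVec_apply]
    simp only [SetLike.val_smul, Pi.smul_apply, smul_eq_mul, toLin'_apply, mulVec_single_one, col_apply] at h6
    rw [← h6, mul_comm]
  have hv0 : v.1 ≠ 0 := by
    intro h5
    apply h0
    rw [hN, h5, zero_vecMulVec]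
  have hf0 : f ≠ 0 := by
    intro h5
    apply h0
    rw [hN, h5, vecMulVec_zero]
  refine ⟨v.1, f, hv0, hf0, ?_, hN⟩
  rw [hN, vecMulVec_mul_vecMulVec, vecMulVec_smul] at h
  exact (smul_eq_zero.1 h).resolve_right (vv_ne hv0 hf0)

section
variable [Finite F]

/-- the root group -/
noncomputable def rt (v f : Fin 3 → F) (h : f ⬝ᵥ v = 0) : Multiplicative F →* ProjectiveSpecialLinearGroup (Fin 3) F :=
  (pj F).comp
    { toFun := fun c => tr (c.toAdd • v) f (by rw [dotProduct_smul, h, smul_zero])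
      map_one' := by
        apply sl_ext
        rw [tr_coe, toAdd_one, zero_smul, zero_vecMulVec, add_zero]
        rfl
      map_mul' := fun c d => by
        rw [tr_mul]
        · apply sl_ext
          rw [tr_coe, tr_coe, toAdd_mul, add_smul]
        · rw [← add_smul, dotProduct_smul, h, smul_zero] }

theorem rt_apply (v f : Fin 3 → F) (h : f ⬝ᵥ v = 0) (c : F) :
    rt v f h (Multiplicative.ofAdd c) = pj F (tr (c • v) f (by rw [dotProduct_smul, h, smul_zero])) := rfl

theorem rt_inj {v f : Fin 3 → F} (h : f ⬝ᵥ v = 0) (hv : v ≠ 0) (hf : f ≠ 0) : Function.Injective (rt v f h) := by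
  rw [injective_iff_map_eq_one]
  intro c hc
  by_contra hc1
  have h1 : c.toAdd ≠ 0 := fun h0 => hc1 (by rw [← ofAdd_toAdd c, h0, ofAdd_zero])
  exact pj_tr_one (by rw [dotProduct_smul, h, smul_zero]) (smul_ne_zero h1 hv) hf hc

theorem card_rt {v f : Fin 3 → F} (h : f ⬝ᵥ v = 0) (hv : v ≠ 0) (hf : f ≠ 0) :
    Nat.card (rt v f h).range = Nat.card F := by
  rw [← Nat.card_congr (MonoidHom.ofInjective (rt_inj h hv hf)).toEquiv]
  rfl

variable {A : Subgroup (ProjectiveSpecialLinearGroup (Fin 3) F)}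
  {Γ : Subgroup (MulAut (ProjectiveSpecialLinearGroup (Fin 3) F))}

theorem fin3 : Finite (ProjectiveSpecialLinearGroup (Fin 3) F) := Quotient.finite _

/-- a root group in the centralizer of an involution `t ∈ A` meets `A` -/
theorem meets (h : IF A Γ) {s : SpecialLinearGroup (Fin 3) F} {a b : F} {v₀ f₀ : Fin 3 → F} (hv₀ : v₀ ≠ 0)
    (hs : (s : Matrix (Fin 3) (Fin 3) F) = a • 1 + b • vecMulVec v₀ f₀) (ho : orderOf (pj F s) = 2) (hsA : pj F s ∈ A)
    {v f : Fin 3 → F} (hfv : f ⬝ᵥ v = 0) (hv : v ≠ 0) (hf : f ≠ 0)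
    (hcomm : ∀ c : F, pj F s * rt v f hfv (Multiplicative.ofAdd c) = rt v f hfv (Multiplicative.ofAdd c) * pj F s) :
    ∃ c : F, c ≠ 0 ∧ rt v f hfv (Multiplicative.ofAdd c) ∈ A := by
  have hfin := fin3 (F := F)
  have hsimp := simple3 (F := F)
  obtain ⟨-, -, -, -, hE⟩ := Cfsg.Agent.H999.IFB.IF.E2' h nonab3 hsA ho
  have h1 := (hE (rt v f hfv).range (by
    rintro _ ⟨c, rfl⟩
    rw [mem_centralizer_singleton_iff]
    exact (hcomm c.toAdd).symm)).1
  have h2 := h1.trans (index_lt hv₀ hs)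
  have h3 : A.relIndex (rt v f hfv).range < Nat.card F := lt_of_pow_lt_pow_left₀ 5 (Nat.zero_le _) h2
  by_contra hcon
  push Not at hcon
  have h4 : A.subgroupOf (rt v f hfv).range = ⊥ := by
    rw [eq_bot_iff]
    rintro ⟨_, c, rfl⟩ hc
    have hc' : rt v f hfv c ∈ A := hc
    rw [Subgroup.mem_bot]
    apply Subtype.ext
    show rt v f hfv c = 1
    by_contra hne
    refine hcon c.toAdd (fun h0 => hne ?_) hc'
    rw [← ofAdd_toAdd c, h0, ofAdd_zero, map_one]
  rw [Subgroup.relIndex, h4, Subgroup.index_bot, card_rt hfv hv hf] at h3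
  exact lt_irrefl _ h3

/-- the transvection `1 + v fᵀ` lies in (the preimage of) `A` -/
def TA (A : Subgroup (ProjectiveSpecialLinearGroup (Fin 3) F)) (v f : Fin 3 → F) : Prop :=
  ∃ h : f ⬝ᵥ v = 0, pj F (tr v f h) ∈ A

theorem TA.add {v v' f : Fin 3 → F} (h : TA A v f) (h' : TA A v' f) : TA A (v + v') f := by
  obtain ⟨h1, h2⟩ := h
  obtain ⟨h1', h2'⟩ := h'
  refine ⟨by rw [dotProduct_add, h1, h1', add_zero], ?_⟩
  rw [← tr_mul h1 h1', map_mul]
  exact A.mul_mem h2 h2'

theorem TA.zero (f : Fin 3 → F) : TA A 0 f := by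
  refine ⟨dotProduct_zero f, ?_⟩
  have : tr 0 f (dotProduct_zero f) = 1 := by
    apply sl_ext
    rw [tr_coe, zero_vecMulVec, add_zero]
    rfl
  rw [this, map_one]
  exact A.one_mem

theorem TA.neg {v f : Fin 3 → F} (h : TA A v f) : TA A (-v) f := by
  obtain ⟨h1, h2⟩ := h
  have h3 : f ⬝ᵥ (-v) = 0 := by rw [dotProduct_neg, h1, neg_zero]
  refine ⟨h3, ?_⟩
  have h4 : tr v f h1 * tr (-v) f h3 = 1 := by
    rw [tr_mul h1 h3 (by rw [add_neg_cancel, dotProduct_zero])]
    apply sl_ext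
    rw [tr_coe, add_neg_cancel, zero_vecMulVec, add_zero]
    rfl
  rw [eq_inv_of_mul_eq_one_right h4, map_inv]
  exact A.inv_mem h2

/-- commutators of transvections -/
theorem TA.comm {v f w f' : Fin 3 → F} (h : TA A v f') (hw : TA A w f) (hf : f ⬝ᵥ v = 0) :
    TA A ((f' ⬝ᵥ w) • v) f := by
  obtain ⟨h1, h2⟩ := h
  obtain ⟨h3, h4⟩ := hw
  have h5 : f ⬝ᵥ (w + (f' ⬝ᵥ w) • v) = 0 := by rw [dotProduct_add, dotProduct_smul, h3, hf, smul_zero, add_zero]
  have h6 := congrArg (pj F) (tr_conj hf h3 h1 h5)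
  rw [map_mul, map_mul] at h6
  have h7 : TA A (w + (f' ⬝ᵥ w) • v) f := by
    refine ⟨h5, ?_⟩
    rw [eq_mul_inv_of_mul_eq h6.symm]
    exact A.mul_mem (A.mul_mem h2 h4) (A.inv_mem h2)
  have h8 := h7.add (TA.neg ⟨h3, h4⟩)
  have h9 : w + (f' ⬝ᵥ w) • v + -w = (f' ⬝ᵥ w) • v := by abel
  rwa [h9] at h8

/-- if every flag has a transvection in `A` then all transvections `1 + v eₖᵀ` are in `A` -/
theorem all_of (hall : ∀ v f : Fin 3 → F, v ≠ 0 → f ≠ 0 → f ⬝ᵥ v = 0 → ∃ c : F, c ≠ 0 ∧ TA A (c • v) f) {i j k : Fin 3}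
    (hij : i ≠ j) (hik : i ≠ k) (hjk : j ≠ k) (c : F) : TA A (c • Pi.single i 1) (Pi.single k 1) := by
  let e : F × F → Fin 3 → F := fun p => p.1 • Pi.single i 1 + p.2 • Pi.single j 1
  have he : ∀ p q, e (p + q) = e p + e q := by
    intro p q
    show (p.1 + q.1) • _ + (p.2 + q.2) • _ = _
    rw [add_smul, add_smul]
    show _ = p.1 • Pi.single i 1 + p.2 • Pi.single j 1 + (q.1 • Pi.single i 1 + q.2 • Pi.single j 1)
    abel
  have hes : ∀ (c : F) p, e (c • p) = c • e p := by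
    intro c p
    show (c * p.1) • _ + (c * p.2) • _ = c • (p.1 • Pi.single i 1 + p.2 • Pi.single j 1)
    rw [smul_add, smul_smul, smul_smul]
  have he0 : e 0 = 0 := by
    show (0 : F) • _ + (0 : F) • _ = _
    rw [zero_smul, zero_smul, add_zero]
  have hek : ∀ p, (Pi.single k 1 : Fin 3 → F) ⬝ᵥ e p = 0 := by
    intro p
    show (Pi.single k 1 : Fin 3 → F) ⬝ᵥ (p.1 • Pi.single i 1 + p.2 • Pi.single j 1) = 0
    rw [dotProduct_add, dotProduct_smul, dotProduct_smul, single_dotProduct, single_dotProduct,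
      Pi.single_eq_of_ne hik.symm, Pi.single_eq_of_ne hjk.symm]
    simp
  have hne : ∀ p, p ≠ 0 → e p ≠ 0 := by
    intro p hp h0
    apply hp
    have h1 := congrFun h0 i
    have h2 := congrFun h0 j
    simp only [e, Pi.add_apply, Pi.smul_apply, smul_eq_mul, Pi.single_eq_same, Pi.single_eq_of_ne hij,
      Pi.single_eq_of_ne hij.symm, mul_one, mul_zero, add_zero, zero_add, Pi.zero_apply] at h1 h2
    exact Prod.ext h1 h2
  let B : AddSubgroup (F × F) :=
    { carrier := {p | TA A (e p) (Pi.single k 1)}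
      zero_mem' := by
        show TA A (e 0) _
        rw [he0]
        exact TA.zero _
      add_mem' := by
        intro p q hp hq
        show TA A (e (p + q)) _
        rw [he]
        exact TA.add hp hq
      neg_mem' := by
        intro p hp
        show TA A (e (-p)) _
        have h1 : e (-p) = -e p := by
          have := he p (-p)
          rw [add_neg_cancel, he0] at this
          exact (neg_eq_of_add_eq_zero_right this.symm).symm
        rw [h1]
        exact TA.neg hp }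
  have hk0 : (Pi.single k 1 : Fin 3 → F) ≠ 0 := Pi.single_ne_zero_iff.2 one_ne_zero
  have hB : B = ⊤ := by
    apply wlem
    · intro p hp
      obtain ⟨c, hc, h1⟩ := hall (e p) (Pi.single k 1) (hne p hp) hk0 (hek p)
      refine ⟨c, hc, ?_⟩
      show TA A (e (c • p)) _
      rw [hes]
      exact h1
    · intro p hp
      let f' : Fin 3 → F := (-p.2) • Pi.single i 1 + p.1 • Pi.single j 1
      have hf' : ∀ w : F × F, f' ⬝ᵥ e w = sf p w := by
        intro w
        show ((-p.2) • Pi.single i 1 + p.1 • Pi.single j 1 : Fin 3 → F) ⬝ᵥ (w.1 • Pi.single i 1 + w.2 • Pi.single j 1) = _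
        simp only [dotProduct_add, add_dotProduct, dotProduct_smul, smul_dotProduct, single_dotProduct,
          Pi.single_eq_same, Pi.single_eq_of_ne hij, Pi.single_eq_of_ne hij.symm, sf, smul_eq_mul]
        ring
      have hf0 : f' ≠ 0 := by
        intro h0
        apply hp
        have h1 := congrFun h0 i
        have h2 := congrFun h0 j
        simp only [f', Pi.add_apply, Pi.smul_apply, smul_eq_mul, Pi.single_eq_same, Pi.single_eq_of_ne hij,
          Pi.single_eq_of_ne hij.symm, mul_one, mul_zero, add_zero, zero_add, Pi.zero_apply, neg_eq_zero] at h1 h2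
        exact Prod.ext h2 h1
      obtain ⟨c, hc, h1⟩ := hall (e p) f' (hne p hp) hf0 (by rw [hf']; unfold sf; ring)
      refine ⟨c, hc, fun w hw => ?_⟩
      have h2 := TA.comm h1 (hw : TA A (e w) (Pi.single k 1)) (by rw [dotProduct_smul, hek, smul_zero])
      show TA A (e ((c * sf p w) • p)) _
      rw [hes]
      rw [hf', smul_smul, mul_comm] at h2
      exact h2
  have h1 : ((c, 0) : F × F) ∈ B := by rw [hB]; trivial
  have h2 : TA A (e (c, 0)) (Pi.single k 1) := h1
  have h3 : e (c, 0) = c • Pi.single i 1 := by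
    show c • _ + (0 : F) • _ = _
    rw [zero_smul, add_zero]
  rwa [h3] at h2

/-- `A` is everything -/
theorem top_of (hall : ∀ (i k : Fin 3), i ≠ k → ∀ c : F, TA A (c • Pi.single i 1) (Pi.single k 1)) : A = ⊤ := by
  have h1 : A.comap (pj F) = ⊤ := by
    rw [eq_top_iff, ← Cfsg.Agent.LieClassical.SLGen.closure_transvections, Subgroup.closure_le]
    rintro _ ⟨i, k, hik, c, rfl⟩
    obtain ⟨h2, h3⟩ := hall i k hik c
    have h4 : SpecialLinearGroup.transvection hik c = tr (c • Pi.single i 1) (Pi.single k 1) h2 := by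
      apply sl_ext
      rw [tr_coe]
      show (1 : Matrix (Fin 3) (Fin 3) F) + single i k c = _
      congr 1
      ext a b
      rw [vecMulVec_apply, Matrix.single_apply, Pi.smul_apply, smul_eq_mul, Pi.single_apply, Pi.single_apply]
      by_cases ha : a = i
      · by_cases hb : b = k
        · simp [ha, hb]
        · simp [hb, Ne.symm hb]
      · simp [ha, Ne.symm ha]
    show pj F _ ∈ A
    rw [h4]
    exact h3
  rw [eq_top_iff]
  intro x _
  obtain ⟨g, rfl⟩ := pj_surj x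
  have : g ∈ A.comap (pj F) := by rw [h1]; trivial
  exact this

/-- a nonzero functional killing two vectors -/
theorem exists_kill (v w : Fin 3 → F) : ∃ f : Fin 3 → F, f ≠ 0 ∧ f ⬝ᵥ v = 0 ∧ f ⬝ᵥ w = 0 := by
  let M : Matrix (Fin 3) (Fin 3) F := !![v 0, v 1, v 2; w 0, w 1, w 2; 0, 0, 0]
  have hM : M.det = 0 := by
    rw [det_fin_three]
    simp [M]
  obtain ⟨f, hf, hf0⟩ := Matrix.exists_mulVec_eq_zero_iff.2 hM
  refine ⟨f, hf, ?_, ?_⟩
  · have h0 := congrFun hf0 0
    simp [M, mulVec, dotProduct, Fin.sum_univ_three] at h0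
    rw [dotProduct, Fin.sum_univ_three]
    linear_combination h0
  · have h0 := congrFun hf0 1
    simp [M, mulVec, dotProduct, Fin.sum_univ_three] at h0
    rw [dotProduct, Fin.sum_univ_three]
    linear_combination h0

/-- elements which agree up to scalars -/
theorem pj_eq {g k : SpecialLinearGroup (Fin 3) F} {r : F} (hr : r ^ 3 = 1)
    (h : (k : Matrix (Fin 3) (Fin 3) F) = r • (g : Matrix (Fin 3) (Fin 3) F)) : pj F k = pj F g := by
  rw [← mul_inv_eq_one, ← map_inv, ← map_mul]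
  refine (QuotientGroup.eq_one_iff _).2 (Matrix.SpecialLinearGroup.mem_center_iff.2 ⟨r, by simpa using hr, ?_⟩)
  rw [Matrix.SpecialLinearGroup.coe_mul, h, smul_mul_assoc, ← Matrix.SpecialLinearGroup.coe_mul, mul_inv_cancel,
    Matrix.SpecialLinearGroup.coe_one, scalar_apply, smul_one_eq_diagonal]

/-- involutions of `PSL₃` lift to involutions -/
theorem lift_inv {t : ProjectiveSpecialLinearGroup (Fin 3) F} (ht : orderOf t = 2) :
    ∃ k : SpecialLinearGroup (Fin 3) F, pj F k = t ∧ k * k = 1 ∧ k ≠ 1 := by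
  obtain ⟨g, rfl⟩ := pj_surj t
  have h1 : pj F (g * g) = 1 := by
    rw [map_mul, ← pow_two, ← ht, pow_orderOf_eq_one]
  obtain ⟨r, hr⟩ := pj_ker h1
  have hr3 : r ^ 3 = 1 := by
    have h2 := congrArg Matrix.det hr
    rw [Matrix.det_smul, det_one, mul_one, Fintype.card_fin, Matrix.SpecialLinearGroup.det_coe] at h2
    exact h2.symm
  have hdet : (r • (g : Matrix (Fin 3) (Fin 3) F)).det = 1 := by
    rw [Matrix.det_smul, Fintype.card_fin, hr3, one_mul, Matrix.SpecialLinearGroup.det_coe]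
  refine ⟨⟨r • (g : Matrix (Fin 3) (Fin 3) F), hdet⟩, pj_eq hr3 rfl, ?_, ?_⟩
  · apply sl_ext
    show (r • (g : Matrix (Fin 3) (Fin 3) F)) * (r • (g : Matrix (Fin 3) (Fin 3) F)) = 1
    rw [smul_mul_assoc, mul_smul_comm, ← Matrix.SpecialLinearGroup.coe_mul, hr, smul_smul, smul_smul]
    have : r * (r * r) = 1 := by linear_combination hr3
    rw [mul_assoc, this, one_smul]
  · intro h2
    have h3 : pj F g = 1 := by
      rw [← pj_eq (k := ⟨r • (g : Matrix (Fin 3) (Fin 3) F), hdet⟩) hr3 rfl, h2, map_one]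
    rw [h3, orderOf_one] at ht
    exact absurd ht (by norm_num)

/-- **`q` even** -/
theorem even3 (h2 : (2 : F) = 0) (h : IF A Γ) (hev : ∃ t ∈ A, orderOf t = 2) : False := by
  -- transvections have order two
  have hord : ∀ {v f : Fin 3 → F} (hfv : f ⬝ᵥ v = 0), v ≠ 0 → f ≠ 0 → orderOf (pj F (tr v f hfv)) = 2 := by
    intro v f hfv hv hf
    apply orderOf_eq_prime
    · rw [pow_two, ← map_mul, tr_mul hfv hfv (by rw [dotProduct_add, hfv, add_zero])]
      have h3 : v + v = 0 := by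
        rw [← two_smul F v, h2, zero_smul]
      have h4 : tr (v + v) f (by rw [dotProduct_add, hfv, add_zero]) = 1 := by
        apply sl_ext
        rw [tr_coe, h3, zero_vecMulVec, add_zero]
        rfl
      rw [h4, map_one]
    · exact pj_tr_one hfv hv hf
  -- the step
  have step : ∀ {v f v' f' : Fin 3 → F}, v ≠ 0 → f ≠ 0 → v' ≠ 0 → f' ≠ 0 → (∃ c : F, c ≠ 0 ∧ TA A (c • v) f) →
      f ⬝ᵥ v' = 0 → f' ⬝ᵥ v = 0 → f' ⬝ᵥ v' = 0 → ∃ c : F, c ≠ 0 ∧ TA A (c • v') f' := by
    rintro v f v' f' hv hf hv' hf' ⟨c, hc, hcv, hcA⟩ h3 h4 h5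
    obtain ⟨d, hd, hdA⟩ := meets h (s := tr (c • v) f hcv) (a := 1) (b := 1) (smul_ne_zero hc hv)
      (by rw [tr_coe, one_smul, one_smul]) (hord hcv (smul_ne_zero hc hv) hf) hcA h5 hv' hf' (by
        intro d
        rw [rt_apply, ← map_mul, ← map_mul, tr_comm]
        · rw [dotProduct_smul, h3, smul_zero]
        · rw [dotProduct_smul, h4, smul_zero])
    exact ⟨d, hd, by rw [dotProduct_smul, h5, smul_zero], hdA⟩
  -- one transvection
  obtain ⟨t, htA, ht⟩ := hev
  obtain ⟨k, rfl, hk, hk1⟩ := lift_inv ht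
  obtain ⟨v₀, f₀, hv₀, hf₀, hfv₀, hN⟩ := sq_zero (N := (k : Matrix (Fin 3) (Fin 3) F) - 1) (by
      have h3 : (k : Matrix (Fin 3) (Fin 3) F) * k = 1 := by
        rw [← Matrix.SpecialLinearGroup.coe_mul, hk, Matrix.SpecialLinearGroup.coe_one]
      have h4 : ((k : Matrix (Fin 3) (Fin 3) F) - 1) * ((k : Matrix (Fin 3) (Fin 3) F) - 1) =
          (2 : F) • ((1 : Matrix (Fin 3) (Fin 3) F) - k) := by
        rw [sub_mul, mul_sub, h3, mul_one, one_mul, two_smul]
        abel
      rw [h4, h2, zero_smul]) (by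
      intro h3
      apply hk1
      apply sl_ext
      rw [Matrix.SpecialLinearGroup.coe_one]
      exact sub_eq_zero.1 h3)
  have hk2 : k = tr v₀ f₀ hfv₀ := by
    apply sl_ext
    rw [tr_coe, ← hN]
    abel
  rw [hk2] at htA
  have hbase : ∃ c : F, c ≠ 0 ∧ TA A (c • v₀) f₀ := by
    refine ⟨1, one_ne_zero, ?_⟩
    rw [one_smul]
    exact ⟨hfv₀, htA⟩
  -- all flags
  have hall : ∀ v f : Fin 3 → F, v ≠ 0 → f ≠ 0 → f ⬝ᵥ v = 0 → ∃ c : F, c ≠ 0 ∧ TA A (c • v) f := by
    intro v f hv hf hfv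
    obtain ⟨f₁, hf₁, h3, h4⟩ := exists_kill v₀ v
    have s1 := step hv₀ hf₀ hv₀ hf₁ hbase hfv₀ h3 h3
    have s2 := step hv₀ hf₁ hv hf₁ s1 h4 h3 h4
    exact step hv hf₁ hv hf s2 h4 hfv hfv
  apply h.ne_top
  apply top_of
  intro i k hik c
  obtain ⟨j, hij, hjk⟩ : ∃ j : Fin 3, i ≠ j ∧ j ≠ k := by
    revert hik
    revert i k
    decide
  exact all_of hall hij hik hjk c

end

end Cfsg.Agent.H771.IFx
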