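import Mathlib

/-!
# S5719 (helper771): an additive subgroup of `F²` meeting every line, and "invariant under transvections", is everything
-/

set_option autoImplicit false

namespace Cfsg.Agent.H771.IFx

variable {F : Type*} [Field F] [Finite F]

/-- the multiples of `v` in `B` -/
def ln (B : AddSubgroup (F × F)) (v : F × F) : Set F := {s : F | s • v ∈ B}

omit [Finite F] in
theorem zero_ln (B : AddSubgroup (F × F)) (v : F × F) : (0 : F) ∈ ln B v := by
  show (0 : F) • v ∈ B
  rw [zero_smul]
  exact B.zero_mem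

/-- the symplectic form on `F²` -/
def sf (v b : F × F) : F := v.1 * b.2 - v.2 * b.1

/-- every element killed by `sf v` is a multiple of `v` -/
theorem eq_smul_of_sf {F : Type*} [Field F] {v b : F × F} (hv : v ≠ 0) (h : sf v b = 0) : ∃ s : F, b = s • v := by
  unfold sf at h
  by_cases h1 : v.1 = 0
  · have h2 : v.2 ≠ 0 := fun h2 => hv (Prod.ext h1 h2)
    refine ⟨b.2 / v.2, Prod.ext ?_ ?_⟩
    · show b.1 = b.2 / v.2 * v.1
      rw [h1] at h ⊢
      have h3 : v.2 * b.1 = 0 := by linear_combination -h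
      rw [mul_zero]
      exact (mul_eq_zero.1 h3).resolve_left h2
    · show b.2 = b.2 / v.2 * v.2
      rw [div_mul_cancel₀ _ h2]
  · refine ⟨b.1 / v.1, Prod.ext ?_ ?_⟩
    · show b.1 = b.1 / v.1 * v.1
      rw [div_mul_cancel₀ _ h1]
    · show b.2 = b.1 / v.1 * v.2
      field_simp
      linear_combination h

/-- **the counting lemma** -/
theorem wlem (B : AddSubgroup (F × F)) (h1 : ∀ v : F × F, v ≠ 0 → ∃ c : F, c ≠ 0 ∧ c • v ∈ B)
    (h2 : ∀ v : F × F, v ≠ 0 → ∃ c : F, c ≠ 0 ∧ ∀ b ∈ B, (c * sf v b) • v ∈ B) : B = ⊤ := by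
  classical
  -- a line with the fewest points
  have hne : Nonempty {v : F × F // v ≠ 0} := ⟨⟨(1, 0), fun h => one_ne_zero (congrArg Prod.fst h)⟩⟩
  obtain ⟨⟨v, hv⟩, hmin⟩ := Finite.exists_min (α := {v : F × F // v ≠ 0}) (fun v => (ln B v.1).ncard)
  set h := (ln B v).ncard with hh
  have hge : ∀ w : F × F, w ≠ 0 → h ≤ (ln B w).ncard := fun w hw => hmin ⟨w, hw⟩
  have h2le : 2 ≤ h := by
    obtain ⟨c, hc, hcB⟩ := h1 v hv
    have : ({0, c} : Set F) ⊆ ln B v := by
      rintro x (rfl | hx)
      · exact zero_ln B v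
      · rw [Set.mem_singleton_iff] at hx
        rw [hx]
        exact hcB
    have h3 := Set.ncard_le_ncard this (Set.toFinite _)
    rwa [Set.ncard_pair (Ne.symm hc)] at h3
  -- the upper bound `|B| ≤ h²`
  have hup : Nat.card B ≤ h * h := by
    obtain ⟨c, hc, hcB⟩ := h2 v hv
    -- choose a section
    let φ : B → ln B v := fun b => ⟨c * sf v b, hcB b b.2⟩
    have hfib : ∀ b b' : B, φ b = φ b' → ∃ s ∈ ln B v, (b' : F × F) = b + s • v := by
      intro b b' hbb
      have h3 : c * sf v b = c * sf v b' := congrArg Subtype.val hbb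
      have h4 := mul_left_cancel₀ hc h3
      have h5 : sf v ((b' : F × F) - b) = 0 := by
        unfold sf at h4 ⊢
        simp only [Prod.fst_sub, Prod.snd_sub]
        linear_combination -h4
      obtain ⟨s, hs⟩ := eq_smul_of_sf hv h5
      refine ⟨s, ?_, ?_⟩
      · show s • v ∈ B
        rw [← hs]
        exact B.sub_mem b'.2 b.2
      · rw [← hs, add_sub_cancel]
    let r : ln B v → B := fun y => if hy : ∃ b, φ b = y then hy.choose else 0
    have hr : ∀ b : B, φ (r (φ b)) = φ b := by
      intro b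
      have hy : ∃ b', φ b' = φ b := ⟨b, rfl⟩
      have : r (φ b) = hy.choose := dif_pos hy
      rw [this]
      exact hy.choose_spec
    choose s hs hs' using fun b : B => hfib (r (φ b)) b (hr b)
    let ψ : B → ln B v × ln B v := fun b => (φ b, ⟨s b, hs b⟩)
    have hψ : Function.Injective ψ := by
      intro b b' hbb
      have h3 : φ b = φ b' := congrArg Prod.fst hbb
      have h4 : s b = s b' := congrArg (fun x => (x.2 : F)) hbb
      apply Subtype.ext
      rw [hs' b, hs' b', h3, h4]
    have h3 := Nat.card_le_card_of_injective ψ hψ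
    rwa [Nat.card_prod] at h3
  -- the lower bound
  have hlow : Nat.card F * (h - 1) + h ≤ Nat.card B := by
    have hf : Fintype F := Fintype.ofFinite F
    let X := (Σ m : F, {s : F // s ≠ 0 ∧ s ∈ ln B (1, m)}) ⊕ ln B (0, 1)
    let ψ : X → B := fun x => match x with
      | Sum.inl ⟨m, s⟩ => ⟨s.1 • ((1 : F), m), s.2.2⟩
      | Sum.inr s => ⟨s.1 • ((0 : F), (1 : F)), s.2⟩
    have hψ : Function.Injective ψ := by
      rintro (⟨m, s, hs, hs'⟩ | ⟨s, hs⟩) (⟨m', s', ht, ht'⟩ | ⟨s', ht⟩) hxy
      · have h3 : (s • ((1 : F), m) : F × F) = s' • ((1 : F), m') := congrArg Subtype.val hxy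
        have h4 : s * 1 = s' * 1 := congrArg Prod.fst h3
        have h5 : s * m = s' * m' := congrArg Prod.snd h3
        rw [mul_one, mul_one] at h4
        subst h4
        have h6 := mul_left_cancel₀ hs h5
        subst h6
        rfl
      · have h3 : (s • ((1 : F), m) : F × F) = s' • ((0 : F), (1 : F)) := congrArg Subtype.val hxy
        have h4 : s * 1 = s' * 0 := congrArg Prod.fst h3
        rw [mul_one, mul_zero] at h4
        exact absurd h4 hs
      · have h3 : (s • ((0 : F), (1 : F)) : F × F) = s' • ((1 : F), m') := congrArg Subtype.val hxy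
        have h4 : s * 0 = s' * 1 := congrArg Prod.fst h3
        rw [mul_one, mul_zero] at h4
        exact absurd h4.symm ht
      · have h3 : (s • ((0 : F), (1 : F)) : F × F) = s' • ((0 : F), (1 : F)) := congrArg Subtype.val hxy
        have h4 : s * 1 = s' * 1 := congrArg Prod.snd h3
        rw [mul_one, mul_one] at h4
        subst h4
        rfl
    have h3 := Nat.card_le_card_of_injective ψ hψ
    refine le_trans ?_ h3
    have h4 : Nat.card X = ∑ m : F, Nat.card {s : F // s ≠ 0 ∧ s ∈ ln B (1, m)} + Nat.card (ln B (0, 1)) := by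
      rw [Nat.card_sum, Nat.card_sigma]
    rw [h4]
    have h5 : h ≤ Nat.card (ln B (0, 1)) := hge (0, 1) (fun h0 => one_ne_zero (congrArg Prod.snd h0))
    have h6 : ∀ m : F, h - 1 ≤ Nat.card {s : F // s ≠ 0 ∧ s ∈ ln B (1, m)} := by
      intro m
      have h7 := hge (1, m) (fun h0 => one_ne_zero (congrArg Prod.fst h0))
      have h8 : {s : F | s ≠ 0 ∧ s ∈ ln B (1, m)} = ln B (1, m) \ {0} := by
        ext s
        constructor
        · rintro ⟨a, b⟩
          exact ⟨b, a⟩
        · rintro ⟨a, b⟩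
          exact ⟨b, a⟩
      have h9 : Nat.card {s : F // s ≠ 0 ∧ s ∈ ln B (1, m)} = (ln B (1, m) \ {0}).ncard := by
        rw [← h8]
        rfl
      rw [h9, Set.ncard_sdiff_singleton_of_mem (zero_ln B (1, m))]
      omega
    have h7 : ∑ _m : F, (h - 1) ≤ ∑ m : F, Nat.card {s : F // s ≠ 0 ∧ s ∈ ln B (1, m)} :=
      Finset.sum_le_sum fun m _ => h6 m
    rw [Finset.sum_const, Finset.card_univ, smul_eq_mul, ← Nat.card_eq_fintype_card] at h7
    exact Nat.add_le_add h7 h5
  -- `q ≤ h`
  have hq : Nat.card F ≤ h := by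
    obtain ⟨k, hk⟩ : ∃ k, h = k + 2 := ⟨h - 2, by omega⟩
    have h3 := hlow.trans hup
    rw [hk] at h3 ⊢
    have h4 : k + 2 - 1 = k + 1 := by omega
    rw [h4] at h3
    by_contra hcon
    push Not at hcon
    have h5 : (k + 3) * (k + 1) ≤ Nat.card F * (k + 1) := Nat.mul_le_mul_right _ hcon
    nlinarith
  -- everything
  have hall : ∀ w : F × F, w ∈ B := by
    intro w
    by_cases hw : w = 0
    · rw [hw]
      exact B.zero_mem
    · have h3 := hge w hw
      have h4 : (ln B w) = Set.univ := by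
        apply Set.eq_of_subset_of_ncard_le (Set.subset_univ _)
        rw [Set.ncard_univ]
        omega
      have h5 : (1 : F) ∈ ln B w := by
        rw [h4]
        trivial
      have h6 : (1 : F) • w ∈ B := h5
      rwa [one_smul] at h6
  rw [AddSubgroup.eq_top_iff']
  exact hall

end Cfsg.Agent.H771.IFx
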