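import Cfsg.Agent.H209.IF.Kill
import Cfsg.Agent.H999.IF.EngB
import Cfsg.Agent.H680.IF.EngA
import Cfsg.Agent.LieClassical.SLGen
import Cfsg.Agent.H771.IFx.Wlem

/-!
# S5719 (helper771): `SL₃(F)`: transvections, classes
-/

set_option autoImplicit false
set_option linter.unusedSectionVars false

namespace Cfsg.Agent.H771.IFx

open Matrix Subgroup Cfsg.Agent.H209.Fxy

variable {F : Type*} [Field F]

theorem sl_ext {A B : SpecialLinearGroup (Fin 3) F} (h : (A : Matrix (Fin 3) (Fin 3) F) = B) : A = B := Subtype.ext h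

/-- the transvection `1 + v fᵀ` -/
def tr (v f : Fin 3 → F) (h : f ⬝ᵥ v = 0) : SpecialLinearGroup (Fin 3) F :=
  ⟨1 + vecMulVec v f, by
    have h' : f 0 * v 0 + f 1 * v 1 + f 2 * v 2 = 0 := by simpa [dotProduct, Fin.sum_univ_three] using h
    rw [det_fin_three]
    simp only [Matrix.add_apply, Matrix.one_apply, vecMulVec_apply]
    simp
    linear_combination h'⟩

theorem tr_coe (v f : Fin 3 → F) (h : f ⬝ᵥ v = 0) :
    ((tr v f h : SpecialLinearGroup (Fin 3) F) : Matrix (Fin 3) (Fin 3) F) = 1 + vecMulVec v f := rfl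

theorem mm (v f v' f' : Fin 3 → F) : (1 + vecMulVec v f) * (1 + vecMulVec v' f') =
    1 + vecMulVec v f + vecMulVec v' f' + (f ⬝ᵥ v') • vecMulVec v f' := by
  simp only [add_mul, mul_add, one_mul, mul_one, vecMulVec_mul_vecMulVec, vecMulVec_smul]
  abel

theorem tr_mul {v v' f : Fin 3 → F} (h : f ⬝ᵥ v = 0) (h' : f ⬝ᵥ v' = 0) (h'' : f ⬝ᵥ (v + v') = 0) :
    tr v f h * tr v' f h' = tr (v + v') f h'' := by
  apply sl_ext
  rw [Matrix.SpecialLinearGroup.coe_mul, tr_coe, tr_coe, tr_coe, mm, h', zero_smul, add_zero, add_vecMulVec]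
  abel

theorem tr_mul' {v f f' : Fin 3 → F} (h : f ⬝ᵥ v = 0) (h' : f' ⬝ᵥ v = 0) (h'' : (f + f') ⬝ᵥ v = 0) :
    tr v f h * tr v f' h' = tr v (f + f') h'' := by
  apply sl_ext
  rw [Matrix.SpecialLinearGroup.coe_mul, tr_coe, tr_coe, tr_coe, mm, h, zero_smul, add_zero, vecMulVec_add]
  abel

theorem tr_comm {v v' f f' : Fin 3 → F} (h : f ⬝ᵥ v = 0) (h' : f' ⬝ᵥ v' = 0) (h1 : f ⬝ᵥ v' = 0) (h2 : f' ⬝ᵥ v = 0) :
    tr v f h * tr v' f' h' = tr v' f' h' * tr v f h := by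
  apply sl_ext
  rw [Matrix.SpecialLinearGroup.coe_mul, Matrix.SpecialLinearGroup.coe_mul, tr_coe, tr_coe, mm, mm, h1, h2, zero_smul,
    zero_smul]
  abel

/-- conjugation of transvections -/
theorem tr_conj {v f w f' : Fin 3 → F} (hf : f ⬝ᵥ v = 0) (hw : f ⬝ᵥ w = 0) (hf' : f' ⬝ᵥ v = 0)
    (h : f ⬝ᵥ (w + (f' ⬝ᵥ w) • v) = 0) :
    tr v f' hf' * tr w f hw = tr (w + (f' ⬝ᵥ w) • v) f h * tr v f' hf' := by
  apply sl_ext
  rw [Matrix.SpecialLinearGroup.coe_mul, Matrix.SpecialLinearGroup.coe_mul, tr_coe, tr_coe, tr_coe, mm, mm, hf, zero_smul,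
    add_zero, add_vecMulVec, smul_vecMulVec]
  abel

theorem vv_smul (c : F) (v f : Fin 3 → F) : vecMulVec (c • v) f = c • vecMulVec v f := smul_vecMulVec c v f

theorem exists_ne {v : Fin 3 → F} (hv : v ≠ 0) : ∃ i, v i ≠ 0 := by
  by_contra h
  push Not at h
  exact hv (funext h)

theorem vv_ne {v f : Fin 3 → F} (hv : v ≠ 0) (hf : f ≠ 0) : vecMulVec v f ≠ 0 := by
  obtain ⟨i, hi⟩ := exists_ne hv
  obtain ⟨j, hj⟩ := exists_ne hf
  intro h
  have h1 := congrFun (congrFun h i) j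
  rw [vecMulVec_apply] at h1
  exact mul_ne_zero hi hj h1

/-- the projection to `PSL₃(F)` -/
noncomputable abbrev pj (F : Type*) [Field F] :
    SpecialLinearGroup (Fin 3) F →* ProjectiveSpecialLinearGroup (Fin 3) F :=
  QuotientGroup.mk' (Subgroup.center (SpecialLinearGroup (Fin 3) F))

theorem pj_surj : Function.Surjective (pj F) := QuotientGroup.mk'_surjective _

theorem pj_ker {g : SpecialLinearGroup (Fin 3) F} (h : pj F g = 1) :
    ∃ r : F, (g : Matrix (Fin 3) (Fin 3) F) = r • 1 := by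
  have h1 : g ∈ Subgroup.center (SpecialLinearGroup (Fin 3) F) := (QuotientGroup.eq_one_iff g).1 h
  obtain ⟨r, -, hr⟩ := Matrix.SpecialLinearGroup.mem_center_iff.1 h1
  exact ⟨r, by rw [← hr, scalar_apply, smul_one_eq_diagonal]⟩

/-! ### counting -/

section count
variable [Finite F]

theorem card_pairs (c : F) :
    Nat.card {p : (Fin 3 → F) × (Fin 3 → F) // p.1 ≠ 0 ∧ p.2 ⬝ᵥ p.1 = c} ≤
      (Nat.card F ^ 3 - 1) * Nat.card F ^ 2 := by
  classical
  have hf : Fintype F := Fintype.ofFinite F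
  choose i hi using fun v : {v : Fin 3 → F // v ≠ 0} => exists_ne v.2
  let ψ : {p : (Fin 3 → F) × (Fin 3 → F) // p.1 ≠ 0 ∧ p.2 ⬝ᵥ p.1 = c} × F →
      {v : Fin 3 → F // v ≠ 0} × (Fin 3 → F) :=
    fun x => (⟨x.1.1.1, x.1.2.1⟩, x.1.1.2 + Pi.single (i ⟨x.1.1.1, x.1.2.1⟩) x.2)
  have hψ : Function.Injective ψ := by
    rintro ⟨⟨⟨v, f⟩, hv, hf⟩, s⟩ ⟨⟨⟨v', f'⟩, hv', hf'⟩, s'⟩ h
    have h1 : v = v' := congrArg (fun x => x.1.1) h
    subst h1
    have h2 : f + Pi.single (i ⟨v, hv⟩) s = f' + Pi.single (i ⟨v, hv⟩) s' := congrArg Prod.snd h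
    have h3 := congrArg (fun x => x ⬝ᵥ v) h2
    simp only at h3 hf hf'
    rw [add_dotProduct, add_dotProduct, hf, hf', single_dotProduct, single_dotProduct] at h3
    have h4 : s = s' := mul_right_cancel₀ (hi ⟨v, hv⟩) (add_left_cancel h3)
    subst h4
    have h5 : f = f' := add_right_cancel h2
    subst h5
    rfl
  have h1 := Nat.card_le_card_of_injective ψ hψ
  rw [Nat.card_prod, Nat.card_prod] at h1
  have h2 : Nat.card {v : Fin 3 → F // v ≠ 0} = Nat.card F ^ 3 - 1 := by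
    rw [Nat.card_eq_fintype_card, Fintype.card_subtype_compl, Fintype.card_subtype_eq, Fintype.card_fun,
      Fintype.card_fin, Nat.card_eq_fintype_card]
  have h3 : Nat.card (Fin 3 → F) = Nat.card F ^ 3 := by
    rw [Nat.card_eq_fintype_card, Fintype.card_fun, Fintype.card_fin, Nat.card_eq_fintype_card]
  rw [h2, h3] at h1
  have h4 : 0 < Nat.card F := Nat.card_pos
  refine Nat.le_of_mul_le_mul_right ?_ h4
  calc _ ≤ _ := h1
    _ = _ := by ring

theorem mulVec_ne (g : SpecialLinearGroup (Fin 3) F) {v : Fin 3 → F} (hv : v ≠ 0) :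
    (g : Matrix (Fin 3) (Fin 3) F) *ᵥ v ≠ 0 := by
  intro h
  apply hv
  have h1 := congrArg (fun w => ((g⁻¹ : SpecialLinearGroup (Fin 3) F) : Matrix (Fin 3) (Fin 3) F) *ᵥ w) h
  simp only [mulVec_mulVec, mulVec_zero] at h1
  rw [← Matrix.SpecialLinearGroup.coe_mul, inv_mul_cancel, Matrix.SpecialLinearGroup.coe_one, one_mulVec] at h1
  exact h1

theorem conj_form (g : SpecialLinearGroup (Fin 3) F) {s : SpecialLinearGroup (Fin 3) F} {a b : F} {v f : Fin 3 → F}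
    (hs : (s : Matrix (Fin 3) (Fin 3) F) = a • 1 + b • vecMulVec v f) :
    ((g * s * g⁻¹ : SpecialLinearGroup (Fin 3) F) : Matrix (Fin 3) (Fin 3) F) = a • 1 + b •
      vecMulVec ((g : Matrix (Fin 3) (Fin 3) F) *ᵥ v)
        (f ᵥ* ((g⁻¹ : SpecialLinearGroup (Fin 3) F) : Matrix (Fin 3) (Fin 3) F)) := by
  rw [Matrix.SpecialLinearGroup.coe_mul, Matrix.SpecialLinearGroup.coe_mul, hs, mul_add, add_mul, mul_smul_comm,
    smul_mul_assoc, mul_one, mul_smul_comm, smul_mul_assoc, mul_vecMulVec, vecMulVec_mul,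
    ← Matrix.SpecialLinearGroup.coe_mul, mul_inv_cancel, Matrix.SpecialLinearGroup.coe_one]

theorem index_le {s : SpecialLinearGroup (Fin 3) F} {a b : F} {v f : Fin 3 → F} (hv : v ≠ 0)
    (hs : (s : Matrix (Fin 3) (Fin 3) F) = a • 1 + b • vecMulVec v f) :
    (centralizer ({pj F s} : Set (ProjectiveSpecialLinearGroup (Fin 3) F))).index * (Nat.card F - 1) ≤
      (Nat.card F ^ 3 - 1) * Nat.card F ^ 2 := by
  classical
  refine le_trans ?_ (card_pairs (f ⬝ᵥ v))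
  have hfF : Fintype F := Fintype.ofFinite F
  choose g hg using fun x : ProjectiveSpecialLinearGroup (Fin 3) F => pj_surj (F := F) x
  let C := centralizer ({pj F s} : Set (ProjectiveSpecialLinearGroup (Fin 3) F))
  let Φ : (ProjectiveSpecialLinearGroup (Fin 3) F ⧸ C) × Fˣ →
      {p : (Fin 3 → F) × (Fin 3 → F) // p.1 ≠ 0 ∧ p.2 ⬝ᵥ p.1 = f ⬝ᵥ v} := fun x =>
    ⟨((x.2 : F) • ((g x.1.out : Matrix (Fin 3) (Fin 3) F) *ᵥ v),
      ((x.2⁻¹ : Fˣ) : F) • (f ᵥ* (((g x.1.out)⁻¹ : SpecialLinearGroup (Fin 3) F) : Matrix (Fin 3) (Fin 3) F))),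
      by
        constructor
        · exact smul_ne_zero x.2.ne_zero (mulVec_ne _ hv)
        · simp only
          rw [smul_dotProduct, dotProduct_smul, smul_smul, ← dotProduct_mulVec, mulVec_mulVec,
            ← Matrix.SpecialLinearGroup.coe_mul, inv_mul_cancel, Matrix.SpecialLinearGroup.coe_one, one_mulVec,
            Units.inv_mul, one_smul]⟩
  have hΦ : Function.Injective Φ := by
    rintro ⟨c, u⟩ ⟨c', u'⟩ h
    have h1 : (u : F) • ((g c.out : Matrix (Fin 3) (Fin 3) F) *ᵥ v) =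
        (u' : F) • ((g c'.out : Matrix (Fin 3) (Fin 3) F) *ᵥ v) := congrArg (fun p => p.1.1) h
    have h2 : ((u⁻¹ : Fˣ) : F) • (f ᵥ* (((g c.out)⁻¹ : SpecialLinearGroup (Fin 3) F) : Matrix (Fin 3) (Fin 3) F)) =
        ((u'⁻¹ : Fˣ) : F) • (f ᵥ* (((g c'.out)⁻¹ : SpecialLinearGroup (Fin 3) F) : Matrix (Fin 3) (Fin 3) F)) :=
      congrArg (fun p => p.1.2) h
    have h3 : ∀ (u : Fˣ) (x y : Fin 3 → F), vecMulVec ((u : F) • x) (((u⁻¹ : Fˣ) : F) • y) = vecMulVec x y := by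
      intro u x y
      rw [smul_vecMulVec, vecMulVec_smul, smul_smul, Units.mul_inv, one_smul]
    have h4 : g c.out * s * (g c.out)⁻¹ = g c'.out * s * (g c'.out)⁻¹ := by
      apply sl_ext
      rw [conj_form _ hs, conj_form _ hs, (h3 u _ _).symm.trans ((congrArg₂ vecMulVec h1 h2).trans (h3 u' _ _))]
    have h5 := congrArg (pj F) h4
    rw [map_mul, map_mul, map_mul, map_mul, map_inv, map_inv, hg, hg] at h5
    have h6 : c = c' := by
      rw [← c.out_eq', ← c'.out_eq']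
      refine QuotientGroup.eq.2 ?_
      rw [mem_centralizer_singleton_iff]
      calc (c.out)⁻¹ * c'.out * pj F s = (c.out)⁻¹ * (c'.out * pj F s * (c'.out)⁻¹) * c'.out := by group
        _ = (c.out)⁻¹ * (c.out * pj F s * (c.out)⁻¹) * c'.out := by rw [h5]
        _ = pj F s * ((c.out)⁻¹ * c'.out) := by group
    subst h6
    have h7 : (u : F) = u' := by
      obtain ⟨i, hi⟩ := exists_ne (mulVec_ne (g c.out) hv)
      have h8 := congrFun h1 i
      simp only [Pi.smul_apply, smul_eq_mul] at h8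
      exact mul_right_cancel₀ hi h8
    rw [Units.ext h7]
  have h1 := Nat.card_le_card_of_injective Φ hΦ
  rw [Nat.card_prod, Nat.card_units] at h1
  exact h1

/-- the index of the centralizer -/
theorem index_le' {s : SpecialLinearGroup (Fin 3) F} {a b : F} {v f : Fin 3 → F} (hv : v ≠ 0)
    (hs : (s : Matrix (Fin 3) (Fin 3) F) = a • 1 + b • vecMulVec v f) :
    (centralizer ({pj F s} : Set (ProjectiveSpecialLinearGroup (Fin 3) F))).index ≤
      (Nat.card F ^ 2 + Nat.card F + 1) * Nat.card F ^ 2 := by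
  have h1 := index_le hv hs
  have h2 : 1 < Nat.card F := Finite.one_lt_card
  obtain ⟨m, hm⟩ : ∃ m, Nat.card F = m + 1 := ⟨Nat.card F - 1, by omega⟩
  have hm0 : 0 < m := by omega
  rw [hm] at h1 ⊢
  have h3 : (m + 1) ^ 3 - 1 = ((m + 1) ^ 2 + (m + 1) + 1) * m := by
    have : (m + 1) ^ 3 = ((m + 1) ^ 2 + (m + 1) + 1) * m + 1 := by ring
    omega
  rw [h3, Nat.add_sub_cancel] at h1
  refine Nat.le_of_mul_le_mul_right ?_ hm0
  calc _ ≤ _ := h1
    _ = _ := by ring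

theorem index_lt {s : SpecialLinearGroup (Fin 3) F} {a b : F} {v f : Fin 3 → F} (hv : v ≠ 0)
    (hs : (s : Matrix (Fin 3) (Fin 3) F) = a • 1 + b • vecMulVec v f) :
    (centralizer ({pj F s} : Set (ProjectiveSpecialLinearGroup (Fin 3) F))).index < Nat.card F ^ 5 := by
  have h1 := index_le' hv hs
  have h2 : 1 < Nat.card F := Finite.one_lt_card
  obtain ⟨m, hm⟩ : ∃ m, Nat.card F = m + 2 := ⟨Nat.card F - 2, by omega⟩
  rw [hm] at h1 ⊢
  refine lt_of_le_of_lt h1 ?_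
  have h3 : (m + 2) ^ 5 = (m + 2) ^ 3 * (m + 2) ^ 2 := by ring
  rw [h3]
  refine Nat.mul_lt_mul_of_pos_right ?_ (by positivity)
  nlinarith

end count

end Cfsg.Agent.H771.IFx
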